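import Mathlib
import Cfsg.Agent.Flav.QuadD

/-! # Quadratic elements: the root space as a Jordan division algebra -/

set_option autoImplicit false
open Cfsg Subgroup Module

namespace Cfsg.Agent.Flav.Qd
open Cfsg.Agent.GT Cfsg.Agent.Chev.Tim Cfsg.Agent.Loc.Mss

section Ring
variable (k : Type*) [Field k] {A : Type*} [Ring A] [Algebra k A]

/-- the root space -/
def JS (G : Subgroup Aˣ) (s : A) (hs : s * s = 0) : Submodule k A where
  carrier := {x | x ∈ QQ k G ∧ Pre x s}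
  zero_mem' := ⟨QQ.zero, Pre.zero s⟩
  add_mem' := fun hx hy =>
    ⟨QQ.add hx.1 hy.1 (hx.2.mul_pre hy.2 hs) (hy.2.mul_pre hx.2 hs), hx.2.add hy.2⟩
  smul_mem' := fun c _ hx => ⟨QQ.smul hx.1 c, hx.2.smul c⟩

variable {k} {G : Subgroup Aˣ} {s t x y : A} {w g : Aˣ}

theorem cn_w (o : Opp s t) (hs : s * s = 0) (e1 : (w : A) = 1 + s - t - (s * t + t * s))
    (e2 : ((w⁻¹ : Aˣ) : A) = 1 - s + t - (s * t + t * s)) (px : Pre x s) :
    cn k w x = -(t * x * t) := by
  have a1 : s * x = 0 := px.zero_mul hs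
  have a2 : x * s = 0 := px.mul_zero hs
  have a3 : s * t * x = x := px.eq_mul o.1
  have a4 : x * (t * s) = x := px.mul_eq (by rw [← mul_assoc, o.1])
  have b1 : (1 + s - t - (s * t + t * s)) * x = -(t * x) := by
    rw [sub_mul, sub_mul, add_mul, add_mul, a1, a3, mul_assoc t s, a1]; simp
  have b2 : x * (1 - s + t - (s * t + t * s)) = x * t := by
    rw [mul_sub, mul_add, mul_sub, mul_add, a2, a4, ← mul_assoc, a2]; simp
  rw [cn_apply, e1, e2, b1, neg_mul, mul_assoc, b2, mul_assoc]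

theorem cn_w' (o : Opp s t) (ht : t * t = 0) (e1 : (w : A) = 1 + s - t - (s * t + t * s))
    (e2 : ((w⁻¹ : Aˣ) : A) = 1 - s + t - (s * t + t * s)) (px : Pre x t) :
    cn k w x = -(s * x * s) := by
  have := cn_w (k := k) (w := w) o.symm.neg (by simp [ht]) (by rw [e1]; noncomm_ring)
    (by rw [e2]; noncomm_ring) px.neg_right
  simpa using this

variable (k s t) in
/-- the value of the representation of `SL₂(k)` given by an opposite pair -/
def pv (m : Matrix.SpecialLinearGroup (Fin 2) k) : A :=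
  1 - s * t - t * s + m 0 0 • (s * t) + m 0 1 • s + m 1 0 • t + m 1 1 • (t * s)

theorem cn_pv (m : Matrix.SpecialLinearGroup (Fin 2) k) :
    cn k g (pv k s t m) = pv k (cn k g s) (cn k g t) m := by
  simp only [pv, map_add, map_sub, map_one, map_smul, map_mul]

theorem exists_psi (o : Opp s t) (hs : s * s = 0) (ht : t * t = 0) :
    ∃ ψ : Matrix.SpecialLinearGroup (Fin 2) k →* Aˣ, (∀ m, (ψ m : A) = pv k s t m) ∧
      (ψ (slUp 1) : A) = 1 + s ∧ (ψ (slLo 1) : A) = 1 + t ∧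
      ∀ K : Subgroup Aˣ, s ∈ QQ k K → t ∈ QQ k K → ∀ m, ψ m ∈ K := by
  have h1 : ∀ a, s * (s * a) = 0 := fun a => by rw [← mul_assoc, hs, zero_mul]
  have h2 : ∀ a, t * (t * a) = 0 := fun a => by rw [← mul_assoc, ht, zero_mul]
  have h5 : s * (t * s) = s := by rw [← mul_assoc, o.1]
  have h6 : t * (s * t) = t := by rw [← mul_assoc, o.2]
  let ψ : Matrix.SpecialLinearGroup (Fin 2) k →* A :=
    { toFun := pv k s t
      map_one' := by simp [pv]; abel
      map_mul' := fun m n => by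
        simp only [pv, Matrix.SpecialLinearGroup.coe_mul, Matrix.mul_apply, Fin.sum_univ_two,
          mul_add, add_mul, mul_sub, sub_mul, smul_mul_assoc, mul_smul_comm, mul_assoc, h1, h2, h5,
          h6, hs, ht, mul_zero, smul_zero, one_mul, mul_one]
        module }
  have e1 : ∀ c, (ψ.toHomUnits (slUp c) : A) = 1 + c • s := fun c => by
    rw [MonoidHom.coe_toHomUnits]; simp [ψ, pv, slUp]; abel
  have e2 : ∀ c, (ψ.toHomUnits (slLo c) : A) = 1 + c • t := fun c => by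
    rw [MonoidHom.coe_toHomUnits]; simp [ψ, pv, slLo]; abel
  refine ⟨ψ.toHomUnits, fun _ => rfl, by rw [e1, one_smul], by rw [e2, one_smul],
    fun K h3 h4 m => ?_⟩
  have : upperUnipotentSL2 k ⊔ lowerUnipotentSL2 k ≤ K.comap ψ.toHomUnits := by
    refine sup_le (fun g hg => ?_) fun g hg => ?_
    · obtain ⟨c, rfl⟩ := mem_upperUnipotentSL2.1 hg
      exact QQ.mem_of_eq (QQ.smul h3 c) (e1 c)
    · obtain ⟨c, rfl⟩ := mem_lowerUnipotentSL2.1 hg
      exact QQ.mem_of_eq (QQ.smul h4 c) (e2 c)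
  exact this (upper_sup_lower k ▸ mem_top m)

end Ring

section End
variable {k : Type*} [Field k] {M : Type*} [AddCommGroup M] [Module k M] [FiniteDimensional k M]
  {G : Subgroup (End k M)ˣ} {s t x y : End k M} (h2 : (2 : k) ≠ 0) (h3 : 3 < ENat.card k)
  (hs : s ∈ LL G) (ht : t ∈ LL G) (o : Opp s t)
include h2 h3 hs ht o

theorem exists_inv_J (hx : x ∈ JS k G s hs.1.1) (h0 : x ≠ 0) :
    ∃ x' ∈ LL G, Pre x' t ∧ Opp x x' ∧ x * x' = s * t ∧ x' * x = t * s := by
  have hx' := LL.of_pre hs hx.1 h0 hx.2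
  obtain ⟨y, hy, py, o'⟩ := LL.exists_opp h2 h3 hx' ht.1
    (sand_pre' h2 h3 hs ht hx' hx.2 (Rel.of_opp ht o.symm))
  exact ⟨y, hy, py, o', idem_eq o o' (LL.pre_symm hs hx.1 h0 hx.2) py,
    idem_eq o.symm o'.symm (LL.pre_symm ht hy.1 hy.2.1 py) hx.2⟩

theorem J_nzd (hx : x ∈ JS k G s hs.1.1) (py : Pre y s) (h : x * t * y = 0) : x = 0 ∨ y = 0 := by
  by_cases h0 : x = 0
  · exact Or.inl h0
  obtain ⟨x', -, -, -, -, e⟩ := exists_inv_J h2 h3 hs ht o hx h0
  right
  calc y = s * (x' * (x * t * y)) := by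
        rw [← mul_assoc x', ← mul_assoc x', e, o.2, ← mul_assoc, py.eq_mul o.1]
    _ = 0 := by rw [h]; simp

theorem exists_sq (hx : x ∈ JS k G s hs.1.1) (h0 : x ≠ 0) :
    ∃ h ∈ stab G s ⊓ stab G t, cn k h s = x * t * x := by
  obtain ⟨x', hx', p', o', e1, e2⟩ := exists_inv_J h2 h3 hs ht o hx h0
  obtain ⟨w, hw, a1, a2⟩ := exists_w o hs.1.1 ht.1.1 (QQ.inU hs.1) (QQ.inU ht.1)
  obtain ⟨w', hw', b1, b2⟩ := exists_w o' hx.1.1 hx'.1.1 (QQ.inU hx.1) (QQ.inU hx'.1)
  have c1 : cn k (w' * w) s = x * t * x := by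
    rw [cn_mul, cn_w o hs.1.1 a1 a2 (Pre.refl s), o.2, map_neg,
      cn_w' o' hx'.1.1 b1 b2 (LL.pre_symm ht hx'.1 hx'.2.1 p'), neg_neg]
  refine ⟨w' * w, ⟨⟨mul_mem hw' hw, ?_⟩, mul_mem hw' hw, ?_⟩, c1⟩
  · rw [c1]; exact (Pre.sandwich t x).trans hx.2
  · rw [cn_mul, cn_w' o ht.1.1 a1 a2 (Pre.refl t), o.1, map_neg,
      cn_w o' hx.1.1 b1 b2 (LL.pre_symm hs hx.1 h0 hx.2), neg_neg]
    exact (Pre.sandwich s x').trans p'

theorem J_sq (hx : x ∈ JS k G s hs.1.1) : x * t * x ∈ JS k G s hs.1.1 := by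
  by_cases h0 : x = 0
  · simp [h0]
  obtain ⟨h, hh, e⟩ := exists_sq h2 h3 hs ht o hx h0
  exact e ▸ ⟨QQ.conj hs.1 hh.1.1, hh.1.2⟩

theorem J_mul (hx : x ∈ JS k G s hs.1.1) (hy : y ∈ JS k G s hs.1.1) {z : End k M}
    (e1 : x * t * y = z) (e2 : y * t * x = z) : z ∈ JS k G s hs.1.1 := by
  have := Submodule.smul_mem _ (2⁻¹ : k) (sub_mem (sub_mem (J_sq h2 h3 hs ht o (add_mem hx hy))
    (J_sq h2 h3 hs ht o hx)) (J_sq h2 h3 hs ht o hy))
  rwa [show (x + y) * t * (x + y) - x * t * x - y * t * y = x * t * y + y * t * x by noncomm_ring,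
    e1, e2, ← two_smul k, smul_smul, inv_mul_cancel₀ h2, one_smul] at this

end End

section Prime
variable {p : ℕ} [Fact p.Prime] (hp : 5 ≤ p) {M : Type*} [AddCommGroup M] [Module (ZMod p) M]
  [Finite M] {G A : Subgroup (End (ZMod p) M)ˣ} {s t u v y z : End (ZMod p) M}
  (hs : s ∈ LL G) (ht : t ∈ LL G) (o : Opp s t)
include hp hs ht o

open scoped IsMulCommutative in
open Polynomial in
theorem J_anti (hu : u ∈ JS (ZMod p) G s hs.1.1) (hv : v ∈ JS (ZMod p) G s hs.1.1)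
    (h : u * t * v = -(v * t * u)) : u = 0 ∨ v = 0 := by
  haveI : Finite (End (ZMod p) M) := Finite.of_injective _ DFunLike.coe_injective
  have h2 := two_ne hp
  have h3 := three_lt hp
  by_contra hne
  push Not at hne
  have us : u * t * s = u := by rw [mul_assoc]; exact hu.2.mul_eq (by rw [← mul_assoc, o.1])
  have vs : v * t * s = v := by rw [mul_assoc]; exact hv.2.mul_eq (by rw [← mul_assoc, o.1])
  have su : s * t * u = u := hu.2.eq_mul o.1
  have sv : s * t * v = v := hv.2.eq_mul o.1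
  have uv : u * t * (v * t) = -(v * t * (u * t)) := by rw [← mul_assoc, h, neg_mul, mul_assoc]
  have cE : ∀ {w}, w * t * s = w → s * t * w = w → Commute (s * t) (w * t) := fun {w} h1 h2 => by
    change _ = _
    rw [← mul_assoc, h2, ← mul_assoc, h1]
  have c1 : Commute (u * t) (v * t * (v * t)) := by
    change _ = _
    rw [← mul_assoc, uv, neg_mul, mul_assoc (v * t), uv, mul_neg, neg_neg, mul_assoc (v * t)]
  have c2 : Commute (v * t) (u * t * (u * t)) := by
    change _ = _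
    rw [mul_assoc (u * t), uv, mul_neg, ← mul_assoc (u * t) (v * t), uv, neg_mul, neg_neg,
      mul_assoc (v * t)]
  let R := Algebra.adjoin (ZMod p) {u * t * (u * t), v * t * (v * t)}
  have cR : ∀ {w}, Commute w (u * t * (u * t)) → Commute w (v * t * (v * t)) → ∀ a ∈ R,
      Commute w a := fun h1 h2 a ha => Algebra.commute_of_mem_adjoin_of_forall_mem_commute ha (by
    rintro _ (rfl | rfl)
    exacts [h1, h2])
  have cU := cR ((Commute.refl _).mul_right (Commute.refl _)) c1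
  have cV := cR c2 ((Commute.refl _).mul_right (Commute.refl _))
  have cS := cR ((cE us su).mul_right (cE us su)) ((cE vs sv).mul_right (cE vs sv))
  haveI : IsMulCommutative R := Algebra.isMulCommutative_adjoin _ (by
    rintro _ (rfl | rfl) _ (rfl | rfl)
    exacts [rfl, (c1.mul_left c1).eq, (c1.mul_left c1).eq.symm, rfl])
  have jm : ∀ a ∈ R, a * s ∈ JS (ZMod p) G s hs.1.1 → ∀ w ∈ JS (ZMod p) G s hs.1.1,
      Commute (w * t) a → a * w ∈ JS (ZMod p) G s hs.1.1 := fun a _ ha w hw c =>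
    J_mul h2 h3 hs ht o ha hw (by rw [mul_assoc a, mul_assoc a, hw.2.eq_mul o.1])
      (by rw [← mul_assoc, c.eq, mul_assoc a, mul_assoc w, hw.2.mul_eq (by rw [← mul_assoc, o.1])])
  have jR : ∀ a ∈ R, a * s ∈ JS (ZMod p) G s hs.1.1 := fun a ha => by
    induction ha using Algebra.adjoin_induction with
    | mem a ha =>
      rcases ha with rfl | rfl
      · rw [mul_assoc (u * t), us]; exact J_sq h2 h3 hs ht o hu
      · rw [mul_assoc (v * t), vs]; exact J_sq h2 h3 hs ht o hv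
    | algebraMap c => rw [← Algebra.smul_def]; exact Submodule.smul_mem _ _ ⟨hs.1, Pre.refl s⟩
    | add a b _ _ h1 h2 => rw [add_mul]; exact add_mem h1 h2
    | mul a b ha hb h1 h2 =>
      rw [mul_assoc]
      refine jm a ha h1 _ h2 ?_
      rw [mul_assoc]
      exact Commute.mul_left (congrArg Subtype.val (mul_comm (⟨b, hb⟩ : R) ⟨a, ha⟩)) (cS a ha)
  let I : Ideal R := Ideal.torsionOf R (End (ZMod p) M) s
  have mI : ∀ a : R, a ∈ I ↔ a.1 * s = 0 := fun a => Ideal.mem_torsionOf_iff s a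
  haveI : I.IsPrime := ⟨(Ideal.ne_top_iff_one _).2 fun e => hs.2.1 (by simpa using (mI 1).1 e),
    fun {a b} hab => by
      rw [mI, mI]
      refine J_nzd h2 h3 hs ht o (jR a a.2) (jR b b.2).2 ?_
      rw [mul_assoc a.1, ← mul_assoc, mul_assoc a.1, (cS b b.2).eq, ← mul_assoc, mul_assoc _ _ s,
        o.1]
      exact (mI _).1 hab⟩
  haveI : Finite (R ⧸ I) := Finite.of_surjective _ Ideal.Quotient.mk_surjective
  letI := Fintype.ofFinite (R ⧸ I)
  let a : R := ⟨_, Algebra.subset_adjoin (Or.inl rfl)⟩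
  let b : R := ⟨_, Algebra.subset_adjoin (Or.inr rfl)⟩
  have ha : Ideal.Quotient.mk I a ≠ 0 := fun e => by
    have := (mI _).1 (Ideal.Quotient.eq_zero_iff_mem.1 e)
    rw [mul_assoc (u * t), us] at this
    exact (J_nzd h2 h3 hs ht o hu hu.2 this).elim hne.1 hne.1
  have hb : Ideal.Quotient.mk I b ≠ 0 := fun e => by
    have := (mI _).1 (Ideal.Quotient.eq_zero_iff_mem.1 e)
    rw [mul_assoc (v * t), vs] at this
    exact (J_nzd h2 h3 hs ht o hv hv.2 this).elim hne.2 hne.2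
  obtain ⟨α, β, e⟩ := FiniteField.exists_root_sum_quadratic (R := R ⧸ I)
    (degree_quadratic (b := 0) (c := 0) ha) (degree_quadratic (b := 0) (c := -1) hb) (by
      rw [Module.card_eq_pow_finrank (K := ZMod p), ZMod.card]
      exact Nat.odd_iff.1 (((Fact.out : p.Prime).odd_of_ne_two (by omega)).pow))
  obtain ⟨α, rfl⟩ := Ideal.Quotient.mk_surjective α
  obtain ⟨β, rfl⟩ := Ideal.Quotient.mk_surjective β
  have e1 : (α * (α * a) + β * (β * b) - 1) ∈ I := by
    rw [← Ideal.Quotient.eq_zero_iff_mem, ← e]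
    simp only [map_add, map_sub, map_mul, map_one, eval_add, eval_mul, eval_C, eval_pow, eval_X]
    ring
  have e2 : α.1 * (α.1 * (u * t * u)) + β.1 * (β.1 * (v * t * v)) = s := by
    have := (mI _).1 e1
    simp only [AddSubgroupClass.coe_sub, AddMemClass.coe_add, MulMemClass.coe_mul, OneMemClass.coe_one,
      sub_mul, add_mul, one_mul, sub_eq_zero, a, b] at this
    rw [← this, mul_assoc α.1, mul_assoc α.1, mul_assoc β.1, mul_assoc β.1, mul_assoc (u * t), us,
      mul_assoc (v * t), vs]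
  have hα := jm _ α.2 (jR _ α.2) u hu (cU _ α.2)
  have hβ := jm _ β.2 (jR _ β.2) v hv (cV _ β.2)
  have hx := add_mem hα hβ
  have mv : ∀ {w w'} (a b : R), Commute (w * t) b.1 → a.1 * w * t * (b.1 * w') =
      a.1 * (b.1 * (w * t * w')) := fun {w w'} a b c => by
    rw [mul_assoc a.1 w, mul_assoc a.1, ← mul_assoc (w * t), c.eq, mul_assoc b.1]
  have e3 : (α.1 * u + β.1 * v) * t * (α.1 * u + β.1 * v) = s := by
    have : β.1 * α.1 = α.1 * β.1 := congrArg Subtype.val (mul_comm β α)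
    rw [add_mul, add_mul, mul_add, mul_add, mv _ _ (cU _ α.2), mv _ _ (cU _ β.2), mv _ _ (cV _ α.2),
      mv _ _ (cV _ β.2), h, ← e2, ← mul_assoc β.1 α.1, this, mul_assoc α.1 β.1]
    simp
  have key : ∀ w ∈ JS (ZMod p) G s hs.1.1,
      (α.1 * u + β.1 * v) * t * w = w * t * (α.1 * u + β.1 * v) := fun w hw => by
    have a1 : s * t * w = w * t * s := by
      rw [hw.2.eq_mul o.1, mul_assoc, hw.2.mul_eq (by rw [← mul_assoc, o.1])]
    generalize α.1 * u + β.1 * v = x at *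
    rcases J_nzd h2 h3 hs ht o (sub_mem hx ⟨hs.1, Pre.refl s⟩) (hx.2.add (Pre.refl s)) (by
      rw [sub_mul, sub_mul, mul_add, mul_add, e3, o.1, hx.2.eq_mul o.1, mul_assoc,
        hx.2.mul_eq (by rw [← mul_assoc, o.1])]; abel) with e | e
    · rw [sub_eq_zero.1 e, a1]
    · rw [eq_neg_of_add_eq_zero_left e, neg_mul, neg_mul, mul_neg, a1]
  have k1 := key u hu
  have k2 := key v hv
  rw [add_mul, add_mul, mul_add, ← mul_assoc (u * t), (cU _ α.2).eq, ← mul_assoc (u * t),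
    (cU _ β.2).eq, mul_assoc β.1 (u * t), h, ← mul_assoc α.1, add_right_inj, mul_neg,
    ← mul_assoc β.1, ← mul_assoc β.1, eq_neg_iff_add_eq_zero, ← two_smul (ZMod p)] at k1
  rw [add_mul, add_mul, mul_add, ← mul_assoc (v * t), (cV _ α.2).eq, ← mul_assoc (v * t),
    (cV _ β.2).eq, mul_assoc α.1 (v * t), ← neg_eq_iff_eq_neg.2 h, ← mul_assoc β.1, add_left_inj,
    mul_neg, ← mul_assoc α.1, ← mul_assoc α.1, eq_neg_iff_add_eq_zero, ← two_smul (ZMod p)] at k2
  rw [(J_nzd h2 h3 hs ht o hβ hu.2 ((smul_eq_zero.1 k1).resolve_left h2)).resolve_right hne.1,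
    (J_nzd h2 h3 hs ht o hα hv.2 ((smul_eq_zero.1 k2).resolve_left h2)).resolve_right hne.2] at e3
  exact hs.2.1 (by simpa using e3.symm)

theorem J_fibre (hy : y ∈ JS (ZMod p) G s hs.1.1) (hz : z ∈ JS (ZMod p) G s hs.1.1)
    (h : y * t * y = z * t * z) : y = z ∨ y = -z :=
  (J_anti hp hs ht o (sub_mem hy hz) (add_mem hy hz) (by noncomm_ring [h])).imp sub_eq_zero.1
    eq_neg_of_add_eq_zero_left

/-- a coprime group normalizing an opposite pair of root spaces has a fixed vector -/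
theorem exists_fixed_J (hAG : A ≤ 𝐍[G]) (hcop : (Nat.card A).Coprime (Nat.card G))
    (hsolv : Group.IsSolvable A ∨ Group.IsSolvable G) (h1 : ∀ a ∈ A, Pre (cn (ZMod p) a s) s)
    (h1' : ∀ a ∈ A, Pre (cn (ZMod p) a t) t) :
    ∃ ξ ∈ LL G, Pre ξ s ∧ ∀ a ∈ A, cn (ZMod p) a ξ = ξ := by
  classical
  haveI := fin_units (p := p) (M := M)
  haveI : Finite (End (ZMod p) M) := Finite.of_injective _ DFunLike.coe_injective
  letI := Fintype.ofFinite (End (ZMod p) M)
  have h2 := two_ne hp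
  have h3 := three_lt hp
  have nst : ∀ x, (∀ a ∈ A, Pre (cn (ZMod p) a x) x) → A ≤ 𝐍[stab G x] := fun x hx =>
    norm_of_forall_cj_le fun a ha => cj_le_iff.2 fun g hg => ⟨conj_mem_of_norm (hAG ha) hg.1, by
      rw [cn_mul, cn_mul]
      exact (pre_cn ((pre_cn (hx _ (inv_mem ha)) g).trans hg.2) a).trans (hx a ha)⟩
  have hAH := norm_inf (nst s h1) (nst t h1')
  generalize hH : stab G s ⊓ stab G t = H at hAH
  have hHG : H ≤ G := fun g hg => (hH.ge hg).1.1
  let J : Finset (End (ZMod p) M) := {x | x ∈ JS (ZMod p) G s hs.1.1 ∧ x ≠ 0}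
  let O : (End (ZMod p) M)ˣ → Finset (End (ZMod p) M) := fun a =>
    {x | ∃ h ∈ H, cn (ZMod p) (a * h) s = x}
  have c1 : J.card ≤ 2 * (O 1).card := by
    refine Finset.card_le_mul_card_image_of_maps_to (f := fun y => y * t * y) (fun y hy => ?_) 2
      fun b _ => ?_
    · obtain ⟨hy1, hy2⟩ := (Finset.mem_filter.1 hy).2
      obtain ⟨h, hh, e⟩ := exists_sq h2 h3 hs ht o hy1 hy2
      exact Finset.mem_filter.2 ⟨Finset.mem_univ _, h, hH ▸ hh, by rw [one_mul, e]⟩
    · rcases Finset.eq_empty_or_nonempty {a ∈ J | a * t * a = b} with e | ⟨z, hz⟩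
      · rw [e]; simp
      refine (Finset.card_le_card (t := {z, -z}) fun y hy => ?_).trans Finset.card_le_two
      obtain ⟨a1, a2⟩ := Finset.mem_filter.1 hy
      obtain ⟨a3, a4⟩ := Finset.mem_filter.1 hz
      simpa using J_fibre hp hs ht o (Finset.mem_filter.1 a1).2.1 (Finset.mem_filter.1 a3).2.1
        (a2.trans a4.symm)
  have c2 : ∀ a, (O 1).card ≤ (O a).card := fun a =>
    Finset.card_le_card_of_injOn (cn (ZMod p) a) (fun x hx => by
      obtain ⟨h, hh, e⟩ := (Finset.mem_filter.1 hx).2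
      exact Finset.mem_filter.2 ⟨Finset.mem_univ _, h, hh, by rw [← e, one_mul, cn_mul]⟩)
      fun _ _ _ _ e => cn_inj e
  have c3 : ∀ a ∈ A, O a ⊆ J := fun a ha x hx => by
    obtain ⟨h, hh, rfl⟩ := (Finset.mem_filter.1 hx).2
    have := ll_cn hs (mul_mem (hAG ha) (le_normalizer (hHG hh)))
    exact Finset.mem_filter.2 ⟨Finset.mem_univ _, ⟨this.1, by
      rw [cn_mul]; exact (pre_cn (hH.ge hh).1.2 a).trans (h1 a ha)⟩, this.2.1⟩
  have c4 : 0 < (O 1).card := Finset.card_pos.2 ⟨s, Finset.mem_filter.2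
    ⟨Finset.mem_univ _, 1, one_mem _, by rw [mul_one, cn_one]⟩⟩
  let B : Subgroup (End (ZMod p) M)ˣ := H ⊔ fixG (ZMod p) 𝐍[H] {s}
  have hB : fixG (ZMod p) 𝐍[H] {s} ≤ 𝐍[H] := fixG_le
  have c5 : ∀ a ∈ A, ∀ b ∈ A, ¬ Disjoint (O a) (O b) → a⁻¹ * b ∈ B := fun a ha b hb hd => by
    obtain ⟨x, x1, x2⟩ := Finset.not_disjoint_iff.1 hd
    obtain ⟨h, hh, rfl⟩ := (Finset.mem_filter.1 x1).2
    obtain ⟨h', hh', e⟩ := (Finset.mem_filter.1 x2).2
    have : (a * h)⁻¹ * (b * h') ∈ fixG (ZMod p) 𝐍[H] {s} :=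
      ⟨mul_mem (inv_mem (mul_mem (hAH ha) (le_normalizer hh))) (mul_mem (hAH hb) (le_normalizer hh')),
        by rintro _ rfl; rw [cn_mul, e, cn_inv_cn]⟩
    rw [show a⁻¹ * b = h * ((a * h)⁻¹ * (b * h')) * h'⁻¹ by group]
    exact mul_mem (mul_mem (mem_sup_left hh) (mem_sup_right this)) (inv_mem (mem_sup_left hh'))
  have odd : Odd (Nat.card A) := by
    obtain ⟨i, hi, ei, ii⟩ := o.exists_inv hs.1 ht.1
    have i1 : orderOf i = 2 := orderOf_eq_prime (by rw [pow_two]; nth_rw 1 [← ii]; simp) fun e => by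
      rw [e, Units.val_one, sub_sub, eq_comm, sub_eq_self, ← two_smul (ZMod p)] at ei
      have := congrArg (· * s) ((smul_eq_zero.1 ei).resolve_left h2)
      simp only [add_mul, o.1, mul_assoc t, hs.1.1, mul_zero, add_zero, zero_mul] at this
      exact hs.2.1 this
    exact Nat.coprime_two_right.1
      (hcop.coprime_dvd_right (i1 ▸ orderOf_dvd_natCard G hi))
  have c6 : ∀ a ∈ A, a ∈ B := fun a ha => by
    have h4 : a ^ 2 ∈ B := by
      by_contra hn
      have n1 : a ∉ B := fun e => hn (pow_mem e 2)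
      have d1 : Disjoint (O 1) (O a) := not_not.1 fun e => n1 (by simpa using c5 _ (one_mem _) _ ha e)
      have d2 : Disjoint (O 1) (O (a ^ 2)) := not_not.1 fun e =>
        hn (by simpa using c5 _ (one_mem _) _ (pow_mem ha 2) e)
      have d3 : Disjoint (O a) (O (a ^ 2)) := not_not.1 fun e =>
        n1 (by simpa [pow_two] using c5 _ ha _ (pow_mem ha 2) e)
      have := Finset.card_le_card (Finset.union_subset (Finset.union_subset (c3 _ (one_mem _))
        (c3 _ ha)) (c3 _ (pow_mem ha 2)))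
      rw [Finset.card_union_of_disjoint (Finset.disjoint_union_left.2 ⟨d2, d3⟩),
        Finset.card_union_of_disjoint d1] at this
      have := c2 a
      have := c2 (a ^ 2)
      omega
    exact mem_of_pow_mem (p := 2) (k := 1) (Nat.Coprime.coprime_dvd_left (orderOf_dvd_natCard A ha)
      (Nat.coprime_two_right.2 odd)) h4
  letI : MulAction (End (ZMod p) M)ˣ (End (ZMod p) M) :=
    { smul := fun g x => cn (ZMod p) g x, one_smul := cn_one, mul_smul := cn_mul }
  obtain ⟨h, hh, e⟩ := CopAct.glauberman_exists_fixed hAH (CopAct.coprime_mono hcop le_rfl hHG)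
    (CopAct.solvable_mono hsolv le_rfl hHG) (ω := s) fun a ha => by
      obtain ⟨h, hh, c, hc, rfl⟩ := (mem_sup_norm hB).1 (c6 a ha)
      exact ⟨h, hh, by
        change cn (ZMod p) _ s = cn (ZMod p) _ s
        rw [cn_mul, hc.2 s rfl]⟩
  exact ⟨_, ll_cn hs (le_normalizer (hHG hh)), (hH.ge hh).1.2, e⟩

end Prime

end Cfsg.Agent.Flav.Qd
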