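import Mathlib
import Cfsg.Agent.Flav.QuadD
import Cfsg.Agent.Flav.QuadE

/-! # A coprime operator group centralizes an `SL₂(p)` -/

set_option autoImplicit false
open Cfsg Subgroup Module

namespace Cfsg.Agent.Flav
open Cfsg.Agent.GT Cfsg.Agent.Chev.Tim Cfsg.Agent.Loc.Mss

namespace Qd

section Ring
variable {k : Type*} [Field k] {R : Type*} [Ring R] [Algebra k R]

/-- the diagonal of a finite invariant family of commuting opposite pairs -/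
theorem exists_diag {G A : Subgroup Rˣ} (X : Set (R × R)) [Finite X]
    (h1 : ∀ q ∈ X, Opp q.1 q.2 ∧ q.1 ∈ QQ k G ∧ q.2 ∈ QQ k G)
    (h2 : ∀ q ∈ X, ∀ r ∈ X, q ≠ r → ∀ x ∈ ({q.1, q.2} : Set R), ∀ y ∈ ({r.1, r.2} : Set R),
      x * y = y * x)
    (h3 : ∀ a ∈ A, ∀ q ∈ X, (cn k a q.1, cn k a q.2) ∈ X) {q : R × R} (hq : q ∈ X) (h0 : q.1 ≠ 0) :
    ∃ φ : Matrix.SpecialLinearGroup (Fin 2) k →* Rˣ, φ.range ≤ G ⊓ 𝐂[A] ∧ φ.ker ≤ center _ := by
  classical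
  letI := Fintype.ofFinite X
  choose ψ e1 e2 e3 e4 using fun r : X => exists_psi (k := k) (h1 r r.2).1 (h1 r r.2).2.1.1
    (h1 r r.2).2.2.1
  have c1 : ∀ r r' : X, r ≠ r' → ∀ m, ψ r m ∈ fixG k G {r'.1.1, r'.1.2} := fun r r' h =>
    e4 r _ (qq_fixG (h1 r r.2).2.1 (h2 r r.2 r' r'.2 (mt Subtype.ext h) _ (Or.inl rfl)))
      (qq_fixG (h1 r r.2).2.2 (h2 r r.2 r' r'.2 (mt Subtype.ext h) _ (Or.inr rfl)))
  have c2 : ∀ r r' : X, r ≠ r' → ∀ m m', Commute (ψ r m) (ψ r' m') := fun r r' h m m' => by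
    apply Units.ext
    rw [Units.val_mul, Units.val_mul, ← cn_eq_self (k := k), e1 r', cn_pv,
      (c1 r r' h m).2 _ (Or.inl rfl), (c1 r r' h m).2 _ (Or.inr rfl)]
  have c3 : ∀ m, ((Finset.univ : Finset X) : Set X).Pairwise
      (Function.onFun Commute fun r => ψ r m) := fun m r _ r' _ h => c2 r r' h m m
  let φ : Matrix.SpecialLinearGroup (Fin 2) k →* Rˣ :=
    { toFun := fun m => Finset.univ.noncommProd (fun r => ψ r m) (c3 m)
      map_one' :=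
        (Finset.noncommProd_eq_pow_card _ _ _ 1 fun _ _ => map_one _).trans (one_pow _)
      map_mul' := fun m n => by
        simp only [map_mul]
        exact Finset.noncommProd_mul_distrib (fun r => ψ r m) (fun r => ψ r n) _ _
          fun r _ r' _ h => c2 r r' h n m }
  have hφ : ∀ m, φ m = Finset.univ.noncommProd (fun r => ψ r m) (c3 m) :=
    fun _ => rfl
  refine ⟨φ, ?_, sl2_ker_le_center φ (s := 1) (t := 1) fun e => ?_⟩
  · rintro _ ⟨m, rfl⟩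
    refine mem_inf.2 ⟨?_, mem_cent.2 fun a ha => ?_⟩
    · exact noncommProd_mem _ (c3 m) fun r _ => e4 r G (h1 r r.2).2.1 (h1 r r.2).2.2 m
    let σ : X ≃ X := Equiv.ofBijective (fun r => ⟨_, h3 a ha r r.2⟩)
      (Finite.injective_iff_bijective.1 fun r r' e => Subtype.ext (Prod.ext
        (cn_inj (congrArg (·.1.1) e)) (cn_inj (congrArg (·.1.2) e))))
    have : ∀ r, MulAut.conj a (ψ r m) = ψ (σ r) m := fun r => Units.ext (by
      rw [MulAut.conj_apply, ← cn_val (k := k), e1, e1, cn_pv]; rfl)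
    rw [← mul_inv_eq_iff_eq_mul, ← MulAut.conj_apply, hφ, Finset.map_noncommProd]
    simp only [this, Finset.noncommProd]
    congr 1
    rw [← Function.comp_def (fun r => ψ r m) σ, ← Multiset.map_map, Multiset.map_univ_val_equiv]
  · have d : ∀ m, ∃ r ∈ fixG k G {q.1, q.2}, φ m = ψ ⟨q, hq⟩ m * r := fun m =>
      ⟨_, noncommProd_mem _ _ fun r hr => c1 r ⟨q, hq⟩ (Finset.mem_erase.1 hr).1 m,
        (Finset.mul_noncommProd_erase _ (Finset.mem_univ (⟨q, hq⟩ : X)) _ (c3 m)).symm⟩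
    obtain ⟨r, hr, d1⟩ := d (slUp 1)
    obtain ⟨r', hr', d2⟩ := d (slLo 1)
    obtain ⟨o, q1, q2⟩ := h1 q hq
    have := congrArg (fun g => cn k g q.1) e
    have f1 : cn k (ψ ⟨q, hq⟩ (slUp 1)) q.1 = q.1 := cn_eq_self.2 ((comm_of_val (e2 _)).2 rfl)
    have f2 : cn k (ψ ⟨q, hq⟩ (slLo 1)) q.1 = q.1 + (q.2 * q.1 - q.1 * q.2) - q.2 := by
      rw [cn_uu (e3 _) q2.1, o.2]
    simp only [d1, d2, cn_mul, hr.2 _ (Or.inl rfl), hr'.2 _ (Or.inl rfl), f1, f2] at this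
    rw [map_sub (cn k r), map_add, map_sub (cn k r), map_mul, map_mul, hr.2 _ (Or.inl rfl),
      hr.2 _ (Or.inr rfl), cn_eq_self, comm_of_val (e2 _)] at this
    have := congrArg (· * q.1) this
    simp only [mul_sub, mul_add, sub_mul, add_mul, ← mul_assoc, q1.1, o.1, zero_mul] at this
    simp only [mul_assoc, q1.1, mul_zero] at this
    exact h0 (by simpa using this)

end Ring

variable {p : ℕ} [Fact p.Prime] (hp : 5 ≤ p) {M : Type*} [AddCommGroup M] [Module (ZMod p) M]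
  [Finite M] {A : Subgroup (End (ZMod p) M)ˣ}
include hp

theorem inv_aux (n : ℕ) : ∀ {G : Subgroup (End (ZMod p) M)ˣ}, Nat.card G = n →
    HasOpp (ZMod p) G → A ≤ 𝐍[G] → (Nat.card A).Coprime (Nat.card G) →
    Group.IsSolvable A ∨ Group.IsSolvable G → ∀ a ∈ QQ (ZMod p) G, a ≠ 0 →
    ∃ φ : Matrix.SpecialLinearGroup (Fin 2) (ZMod p) →* (End (ZMod p) M)ˣ,
      φ.range ≤ G ⊓ 𝐂[A] ∧ φ.ker ≤ center _ := by
  haveI := fin_units (p := p) (M := M)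
  haveI : Finite (End (ZMod p) M) := Finite.of_injective _ DFunLike.coe_injective
  have h2 := two_ne hp
  have h3 := three_lt hp
  induction n using Nat.strong_induction_on with
  | _ n ih =>
  intro G hn hG hAG hcop hsolv a ha h0
  have le1 : relG G h2 ≤ G := fun _ h => h.1
  rcases le1.lt_or_eq with lt | e
  · obtain ⟨φ, h4, h5⟩ := ih _ (hn ▸ PG.card_lt_of_lt lt) rfl (fun x hx h0 => by
      obtain ⟨y, hy, o⟩ := hG x (QQ.mono hx le1) h0
      exact ⟨y, qq_relG hp hG hy, o⟩) (norm_relG h2 hAG) (CopAct.coprime_mono hcop le_rfl le1)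
      (CopAct.solvable_mono hsolv le_rfl le1) a (qq_relG hp hG ha) h0
    exact ⟨φ, h4.trans (inf_le_inf_right _ le1), h5⟩
  have hR : ∀ g ∈ G, ∀ s ∈ LL G, Rel G s (cn (ZMod p) g s) := fun g hg => (e.ge hg).2
  obtain ⟨S', hAS⟩ := CopAct.exists_invariant_sylow hAG hcop hsolv p
  have hS := Syl.of_sylow_sub S'
  generalize (S' : Subgroup G).map G.subtype = S at *
  have hL := trans_Lam hp hG hR hS
  obtain ⟨c, hc, hf⟩ := exists_frame hp hG hR hS hAG hAS hcop hsolv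
  obtain ⟨hc1, hc2⟩ := mem_inf.1 hc
  have hT := hL.sm (le_normalizer hc1)
  have aT : ∀ g ∈ A, ∀ t ∈ sm (ZMod p) c (Lam G S), cn (ZMod p) g t ∈ sm (ZMod p) c (Lam G S) :=
    fun g hg t ht => by
      change cn (ZMod p) c⁻¹ _ ∈ Lam G S
      rw [← cn_mul, ← mem_cent.1 (inv_mem hc2) g hg, cn_mul]
      exact cn_mem_Lam (hAG hg) (hAS hg) ht
  obtain ⟨x, hx⟩ := exists_ll ha h0
  obtain ⟨x', hx', -⟩ := hL.ex x hx
  obtain ⟨s, hs, h1⟩ := hf x' hx'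
  have m1 := cn_mem_sm (k := ZMod p) (g := c) hx'
  obtain ⟨t, ht, pt, o⟩ := LL.exists_opp h2 h3 hs.1 (hT.ll _ m1).1 h1
  replace ht := hT.pre _ m1 t ht pt
  generalize sm (ZMod p) c (Lam G S) = T at hT aT ht
  have ht' := hT.ll t ht
  have rel : ∀ {x y}, x ∈ LL G → y ∈ LL G → Opp x y → Rel G x y := fun _ hy o =>
    Rel.of_ne hy (Rel.of_opp hy o.symm)
  have back : ∀ {x y}, x ∈ LL G → y ∈ T → Opp x y → ∀ g ∈ A, Rel G x (cn (ZMod p) g x) →
      Pre (cn (ZMod p) g y) y := fun hx hy o g hg r =>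
    hT.uniq _ hy _ (aT g hg _ hy) ((((rel hx (hT.ll _ hy) o).symm h2 hx).trans r).trans
      ((rel hx (hT.ll _ hy) o).cn (hAG hg)))
  obtain ⟨ξ, hξ, pξ, fξ⟩ := exists_fixed_J hp hs.1 ht' o (A := A ⊓ stab ⊤ s)
    (inf_le_left.trans hAG) (CopAct.coprime_mono hcop inf_le_left le_rfl)
    (CopAct.solvable_mono hsolv inf_le_left le_rfl) (fun g hg => hg.2.2) fun g hg =>
      back hs.1 ht o g hg.1 (Rel.of_pre h2 h3 hG hs.1 (ll_cn hs.1 (hAG hg.1)) hg.2.2)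
  obtain ⟨η, hη, pη, o', -⟩ := exists_inv_J h2 h3 hs.1 ht' o ⟨hξ.1, pξ⟩ hξ.2.1
  have mξ := hL.pre s hs ξ hξ pξ
  have mη := hT.pre t ht η hη pη
  have fix : ∀ g ∈ A, Rel G ξ (cn (ZMod p) g ξ) → cn (ZMod p) g ξ = ξ ∧ cn (ZMod p) g η = η :=
    fun g hg r => by
      have p1 := hL.uniq _ mξ _ (cn_mem_Lam (hAG hg) (hAS hg) mξ) r
      have e1 := fξ g ⟨hg, mem_top _,
        ((pre_cn (LL.pre_symm hs.1 hξ.1 hξ.2.1 pξ) g).trans p1).trans pξ⟩
      have p2 := back hξ mη o' g hg r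
      have o1 := opp_cn (k := ZMod p) o' g
      rw [e1] at o1
      refine ⟨e1, ?_⟩
      rw [← o1.2, mul_assoc, idem_eq o' o1 (Pre.refl ξ) p2, ← mul_assoc]
      exact (pre_cn_symm p2).eq_mul o1.2
  refine exists_diag (q := (ξ, η)) {q | ∃ g ∈ A, q = (cn (ZMod p) g ξ, cn (ZMod p) g η)} ?_ ?_ ?_
    ⟨1, one_mem _, by rw [cn_one, cn_one]⟩ hξ.2.1
  · rintro _ ⟨g, hg, rfl⟩
    exact ⟨opp_cn o' g, qq_cn hξ.1 (hAG hg), qq_cn hη.1 (hAG hg)⟩
  · rintro _ ⟨g, hg, rfl⟩ _ ⟨g', hg', rfl⟩ hne x hx y hy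
    have m : ∀ g ∈ A, ∀ x ∈ ({cn (ZMod p) g ξ, cn (ZMod p) g η} : Set _),
        Rel G (cn (ZMod p) g ξ) x := by
      rintro g hg _ (rfl | rfl)
      exacts [Rel.refl _, (rel hξ hη o').cn (hAG hg)]
    have l1 := ll_cn hξ (hAG hg)
    have l2 := ll_cn hξ (hAG hg')
    refine comm_of_not_rel h2 h3 hG ((m g hg x hx).ll l1) ((m g' hg' y hy).ll l2) fun r => hne ?_
    have r1 := (((m g hg x hx).trans r).trans ((m g' hg' y hy).symm h2 l2)).cn (hAG (inv_mem hg))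
    rw [cn_inv_cn, ← cn_mul] at r1
    obtain ⟨f1, f2⟩ := fix _ (mul_mem (inv_mem hg) hg') r1
    rw [cn_mul] at f1 f2
    have f3 := cn_inv_of_eq f1
    have f4 := cn_inv_of_eq f2
    rw [inv_inv] at f3 f4
    rw [f3, f4]
  · rintro g hg _ ⟨g', hg', rfl⟩
    exact ⟨g * g', mul_mem hg hg', by rw [cn_mul, cn_mul]⟩

end Qd

theorem quad_inv {p : ℕ} [Fact p.Prime] (hp : 5 ≤ p) {M : Type*} [AddCommGroup M]
    [Module (ZMod p) M] [Finite M] {G A : Subgroup (End (ZMod p) M)ˣ}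
    (hG : NoUnip (ZMod p) G) (hAG : A ≤ 𝐍[G]) (hcop : (Nat.card A).Coprime (Nat.card G))
    (hsolv : Group.IsSolvable A ∨ Group.IsSolvable G) {g : (End (ZMod p) M)ˣ} (hg : g ∈ G)
    (h1 : g ≠ 1) (hq : ((g : End (ZMod p) M) - 1) * ((g : End (ZMod p) M) - 1) = 0) :
    ∃ φ : Matrix.SpecialLinearGroup (Fin 2) (ZMod p) →* (End (ZMod p) M)ˣ,
      φ.range ≤ G ⊓ 𝐂[A] ∧ φ.ker ≤ center _ :=
  Qd.inv_aux hp _ rfl (Qd.hasOpp_of_noUnip hp hG) hAG hcop hsolv _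
    (Qd.qq_of_inU hq ⟨g, hg, by simp⟩) fun e => h1 (Units.ext (sub_eq_zero.1 e))

end Cfsg.Agent.Flav
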